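import Cfsg.Agent.H889.Mono.Five

/-!
# S2187, M9 (`p = 5`, `E₈`): `lam2` (helper889)
-/

set_option autoImplicit false
set_option linter.unusedSectionVars false
set_option linter.unusedSimpArgs false

namespace Cfsg.Agent.H889.Mono.Five

open Polynomial CoxeterSystem
open Cfsg Cfsg.Lie Cfsg.Agent.ChevalleyStructure.CoxeterGeom Cfsg.Agent.Tits.Roots Cfsg.Agent.Tits.Core
  Cfsg.Agent.Nodes.Comb Cfsg.Agent.Nodes.SubComb Cfsg.Agent.Nodes.PosPair Cfsg.Agent.Nodes.Coroot
  Cfsg.Agent.Nodes.KindBase

section W

variable {I W : Type*} [Fintype I] [DecidableEq I] [Group W] {M : CoxeterMatrix I}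
  (cs : CoxeterSystem M W) {A : I → I → ℤ} (h : IsCartan M A) [Finite W]

theorem y11 (j : ZMod 5) : ¬ (j + 1 = j + 2 ∨ j = j + 1 + 2) := by revert j; decide
theorem y21 (j : ZMod 5) : j + 2 = j + 2 ∨ j = j + 2 + 2 := by revert j; decide
theorem y31 (j : ZMod 5) : j + 3 = j + 2 ∨ j = j + 3 + 2 := by revert j; decide
theorem y41 (j : ZMod 5) : ¬ (j + 4 = j + 2 ∨ j = j + 4 + 2) := by revert j; decide

/-- **`lam2`**, general form: from the existence of a vector `x` with the inner products of `e_0` -/
theorem lam_root (h8 : Fintype.card I = 8) {w : W} (hw : w ^ 5 = 1) {b : I → ℤ}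
    (hb : IsRoot cs h b) (h1 : cpr cs h (rep cs h w b) b = 1) :
    cpr cs h (rep cs h (w ^ 2) b) b = 1 ∨ ∃ r : ZMod 5 → I → ℤ, (∀ i, ∃ v, r i = rep cs h v (b - rep cs h w b)) ∧
      (∀ i, IsRoot cs h (r i)) ∧
      (∀ i j, cpr cs h (r i) (r j) = if i = j then 2 else if i = j + 2 ∨ j = i + 2 then -1 else 0) ∧
      ∀ x, IsRoot cs h x → cpr cs h x (r 0) = 1 → cpr cs h x (r 2) = 0 → cpr cs h x (r 4) = 0 → cpr cs h x (r 1) = 0 →
        (∃ v, x = rep cs h v b) →
        cpr cs h (rep cs h w x) x = 1 ∧ cpr cs h (rep cs h (w ^ 2) x) x = 1 := by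
  have := Fintype.ofFinite W
  have hpos := form_pos cs h hb.ne_zero
  have e3 : ob cs h w b 1 = rep cs h w b := by
    show rep cs h (w ^ 1) b = _
    rw [pow_one]
  have e4 : ob cs h w b 2 = rep cs h (w ^ 2) b := rfl
  have e1 := two_form_cpr cs h (rep cs h w b) hb
  have e2 := two_form_cpr cs h (rep cs h (w ^ 2) b) hb
  rw [h1, one_mul] at e1
  obtain ⟨m, hm⟩ : ∃ m, m = cpr cs h (rep cs h (w ^ 2) b) b := ⟨_, rfl⟩
  rw [← hm] at e2
  have hwb : IsRoot cs h (rep cs h w b) := hb.act w
  have hN : form cs h (rep cs h w b) (rep cs h w b) = form cs h b b := form_rep cs h w b b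
  have hN2 : form cs h (rep cs h (w ^ 2) b) (rep cs h (w ^ 2) b) = form cs h b b := form_rep cs h (w ^ 2) b b
  have h1' : cpr cs h b (rep cs h w b) = 1 := by
    apply cpr_eq_of_form cs h hwb
    rw [hN, form_comm, e1, one_mul]
  have hr : IsRoot cs h (b - rep cs h w b) := (cpr_diff cs h hb hwb h1' h1 b).1
  have g1 := e1
  have g2 := e2
  rw [← e3] at g1
  rw [← e4] at g2
  have g4 := form_ob_neg cs h hw b 1
  have g3 := form_ob_neg cs h hw b 2
  have g4' : (-1 : ZMod 5) = 4 := by decide
  have g3' : (-2 : ZMod 5) = 3 := by decide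
  rw [g4'] at g4
  rw [g3'] at g3
  have g0 : form cs h (ob cs h w b 0) b = form cs h b b := by rw [ob_zero]
  have f0 := form_sub cs h hw b 0
  have f1 := form_sub cs h hw b 1
  have f2 := form_sub cs h hw b 2
  have f3 := form_sub cs h hw b 3
  have f4 := form_sub cs h hw b 4
  have z0m : (0 - 1 : ZMod 5) = 4 := by decide
  have z0p : (0 + 1 : ZMod 5) = 1 := by decide
  have z1m : (1 - 1 : ZMod 5) = 0 := by decide
  have z1p : (1 + 1 : ZMod 5) = 2 := by decide
  have z2m : (2 - 1 : ZMod 5) = 1 := by decide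
  have z2p : (2 + 1 : ZMod 5) = 3 := by decide
  have z3m : (3 - 1 : ZMod 5) = 2 := by decide
  have z3p : (3 + 1 : ZMod 5) = 4 := by decide
  have z4m : (4 - 1 : ZMod 5) = 3 := by decide
  have z4p : (4 + 1 : ZMod 5) = 0 := by decide
  rw [z0m, z0p, ob_zero, ob_zero] at f0
  rw [z1m, z1p, ob_zero] at f1
  rw [z2m, z2p] at f2
  rw [z3m, z3p] at f3
  rw [z4m, z4p, ob_zero] at f4
  set c := b - rep cs h w b with hc
  have hcc : form cs h c c = form cs h b b := by linarith
  -- `m = 1` or `m = 0`
  have hm01 : m = 1 ∨ m = 0 := by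
    have hle : m ≤ 2 := by
      have h2 := form_nonneg cs h (b - rep cs h (w ^ 2) b)
      rw [form_sub_left, form_sub_right, form_sub_right, hN2, form_comm cs h b (rep cs h (w ^ 2) b)] at h2
      by_contra hcon
      push Not at hcon
      nlinarith
    have hge : -1 ≤ m := by
      have h2 := form_nonneg cs h (ob cs h w c 2 + ob cs h w c 0)
      rw [ob_zero, form_add_left, form_add_right, form_add_right, form_ob cs h hw, sub_self, ob_zero, hcc,
        form_comm cs h c (ob cs h w c 2), f2] at h2
      by_contra hcon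
      push Not at hcon
      nlinarith
    have hne2 : m ≠ 2 := by
      intro hm2
      have h2 : form cs h (b - rep cs h (w ^ 2) b) (b - rep cs h (w ^ 2) b) = 0 := by
        rw [form_sub_left, form_sub_right, form_sub_right, hN2, form_comm cs h b (rep cs h (w ^ 2) b)]
        rw [hm2] at e2
        linarith
      have h3 : b - rep cs h (w ^ 2) b = 0 := by
        by_contra hcon
        exact (form_pos cs h hcon).ne' h2
      have h4 : rep cs h (w ^ 2) b = b := (sub_eq_zero.1 h3).symm
      have h5 : rep cs h w b = b := by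
        have h6 : w = w ^ 2 * w ^ 2 * w ^ 2 := by
          calc w = w ^ 5 * w := by rw [hw, one_mul]
            _ = _ := by group
        rw [h6, rep_mul_apply, rep_mul_apply, h4, h4, h4]
      rw [h5, cpr_self cs h hb] at h1
      omega
    have hne1 : m ≠ -1 := by
      intro hm2
      have h2 : form cs h (ob cs h w c 2 + ob cs h w c 0) (ob cs h w c 2 + ob cs h w c 0) = 0 := by
        rw [ob_zero, form_add_left, form_add_right, form_add_right, form_ob cs h hw, sub_self, ob_zero, hcc,
          form_comm cs h c (ob cs h w c 2), f2]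
        rw [hm2] at g2
        linarith
      have h3 : ob cs h w c 2 + ob cs h w c 0 = 0 := by
        by_contra hcon
        exact (form_pos cs h hcon).ne' h2
      rw [ob_zero] at h3
      have h4 : rep cs h (w ^ 2) c = -c := by
        rw [← sub_eq_zero, sub_neg_eq_add]; exact h3
      have h5 : c = -c := by
        have h6 : w ^ 2 * w ^ 2 * w ^ 2 * w ^ 2 * w ^ 2 = 1 := by
          calc w ^ 2 * w ^ 2 * w ^ 2 * w ^ 2 * w ^ 2 = w ^ 5 * w ^ 5 := by group
            _ = 1 := by rw [hw, one_mul]
        have h7 : rep cs h (w ^ 2 * w ^ 2 * w ^ 2 * w ^ 2 * w ^ 2) c = -c := by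
          simp only [rep_mul_apply, h4, map_neg, neg_neg]
        rw [h6, map_one, Module.End.one_apply] at h7
        exact h7
      apply hr.ne_zero
      funext i
      have h6 : c i = -c i := congrFun h5 i
      show c i = 0
      omega
    have hm3 : m = -1 ∨ m = 0 ∨ m = 1 ∨ m = 2 := by omega
    omega
  rcases hm01 with hm1 | hm0
  · left; rw [← hm, hm1]
  right
  rw [hm0, zero_mul] at g2
  refine ⟨fun i => ob cs h w c i, fun i => ⟨_, rfl⟩, fun i => hr.act _, ?_, ?_⟩
  · intro i j
    have hcj : IsRoot cs h (ob cs h w c j) := hr.act _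
    have hcc' : form cs h (ob cs h w c j) (ob cs h w c j) = form cs h b b := by
      show form cs h (rep cs h _ c) (rep cs h _ c) = _
      rw [form_rep, hcc]
    show cpr cs h (ob cs h w c i) (ob cs h w c j) = _
    apply cpr_eq_of_form cs h hcj
    rw [hcc', form_ob cs h hw]
    obtain ⟨k, hk⟩ : ∃ k : ZMod 5, k = i - j := ⟨_, rfl⟩
    have hik : i = j + k := by rw [hk]; ring
    rw [← hk, hik]
    rcases z5 k with rfl | rfl | rfl | rfl | rfl
    · rw [if_pos (by ring), ob_zero]; linarith
    · rw [if_neg (z10 j), if_neg (y11 j)]; linarith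
    · rw [if_neg (z20 j), if_pos (y21 j)]; linarith
    · rw [if_neg (z30 j), if_pos (y31 j)]; linarith
    · rw [if_neg (z40 j), if_neg (y41 j)]; linarith
  · rintro x hx x0 x2 x4 x1 hxv
    have hxN : form cs h x x = form cs h b b := by
      obtain ⟨v, rfl⟩ := hxv
      exact form_rep cs h _ _ _
    have hfne : b + rep cs h w b + rep cs h w (rep cs h w b) + rep cs h w (rep cs h w (rep cs h w b)) +
        rep cs h w (rep cs h w (rep cs h w (rep cs h w b))) ≠ 0 := by
      refine sum_ne cs h hw ?_
      rw [e3]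
      intro h0
      linarith
    have hsum : ob cs h w c 0 + ob cs h w c 1 + ob cs h w c 2 + ob cs h w c 3 + ob cs h w c 4 = 0 := by
      rw [← sum_ob cs h hw, hc]; exact sum_sub cs h hw b
    have hrC : ∀ i, IsRoot cs h (ob cs h w c i) := fun i => hr.act _
    have hCC : ∀ i, form cs h (ob cs h w c i) (ob cs h w c i) = form cs h b b := by
      intro i
      show form cs h (rep cs h _ c) (rep cs h _ c) = _
      rw [form_rep, hcc]
    have X0 := two_form_cpr cs h x (hrC 0)
    have X1 := two_form_cpr cs h x (hrC 1)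
    have X2 := two_form_cpr cs h x (hrC 2)
    have X4 := two_form_cpr cs h x (hrC 4)
    rw [x0, hCC] at X0
    rw [x1, zero_mul] at X1
    rw [x2, zero_mul] at X2
    rw [x4, zero_mul] at X4
    have X3 : form cs h x (ob cs h w c 0) + form cs h x (ob cs h w c 1) + form cs h x (ob cs h w c 2) +
        form cs h x (ob cs h w c 3) + form cs h x (ob cs h w c 4) = 0 := by
      rw [← form_add_right, ← form_add_right, ← form_add_right, ← form_add_right, hsum, form_zero_right]
    have hwx : ∀ i, form cs h (rep cs h w x) (ob cs h w c (i + 1)) = form cs h x (ob cs h w c i) := by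
      intro i
      rw [← rep_ob cs h hw, form_rep]
    have W0 := hwx 4
    have W1 := hwx 0
    have W2 := hwx 1
    have W3 := hwx 2
    have W4 := hwx 3
    rw [z4p] at W0
    rw [z0p] at W1
    rw [z1p] at W2
    rw [z2p] at W3
    rw [z3p] at W4
    have F : ∀ i j, form cs h (ob cs h w c i) (ob cs h w c j) = form cs h (ob cs h w c (i - j)) c := form_ob cs h hw c
    have d00 := F 0 0
    have d02 := F 0 2
    have d04 := F 0 4
    have d10 := F 1 0
    have d12 := F 1 2
    have d14 := F 1 4
    have d20 := F 2 0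
    have d22 := F 2 2
    have d24 := F 2 4
    have d30 := F 3 0
    have d32 := F 3 2
    have d34 := F 3 4
    have d40 := F 4 0
    have d42 := F 4 2
    have d44 := F 4 4
    rw [show (0 - 0 : ZMod 5) = 0 by decide, ob_zero] at d00
    rw [show (0 - 2 : ZMod 5) = 3 by decide, ob_zero] at d02
    rw [show (0 - 4 : ZMod 5) = 1 by decide, ob_zero] at d04
    rw [show (1 - 0 : ZMod 5) = 1 by decide, ob_zero] at d10
    rw [show (1 - 2 : ZMod 5) = 4 by decide] at d12
    rw [show (1 - 4 : ZMod 5) = 2 by decide] at d14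
    rw [show (2 - 0 : ZMod 5) = 2 by decide, ob_zero] at d20
    rw [show (2 - 2 : ZMod 5) = 0 by decide, ob_zero] at d22
    rw [show (2 - 4 : ZMod 5) = 3 by decide] at d24
    rw [show (3 - 0 : ZMod 5) = 3 by decide, ob_zero] at d30
    rw [show (3 - 2 : ZMod 5) = 1 by decide] at d32
    rw [show (3 - 4 : ZMod 5) = 4 by decide] at d34
    rw [show (4 - 0 : ZMod 5) = 4 by decide, ob_zero] at d40
    rw [show (4 - 2 : ZMod 5) = 2 by decide] at d42
    rw [show (4 - 4 : ZMod 5) = 0 by decide, ob_zero] at d44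
    rw [ob_zero] at X0 X3 W1
    set u := x - (ob cs h w b 0 + ob cs h w b 2 + ob cs h w b 4) with hu
    have hy : u - rep cs h w u = x - rep cs h w x - (c + ob cs h w c 2 + ob cs h w c 4) := by
      have s0 : ob cs h w c 0 = _ := ob_sub cs h hw b 0
      have s2 : ob cs h w c 2 = _ := ob_sub cs h hw b 2
      have s4 : ob cs h w c 4 = _ := ob_sub cs h hw b 4
      rw [ob_zero] at s0
      rw [s2, s4, s0, hu]
      simp only [map_sub, map_add, rep_ob cs h hw]
      abel
    have hzero : u - rep cs h w u = 0 := by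
      refine zero_gen cs h h8 hw hfne hr.ne_zero (sum_sub cs h hw b) (sum_sub cs h hw u) ?_
      intro k
      rw [pow_ob cs h hw, hy, form_sub_right, form_sub_right, form_add_right, form_add_right,
        form_comm cs h _ x, form_comm cs h _ (rep cs h w x)]
      rcases z5 (k : ZMod 5) with h5 | h5 | h5 | h5 | h5
      · rw [h5, ob_zero, form_comm cs h c (ob cs h w c 2), form_comm cs h c (ob cs h w c 4)]
        rw [ob_zero] at W0
        linarith
      · rw [h5]; linarith
      · rw [h5]; linarith
      · rw [h5]; linarith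
      · rw [h5]; linarith
    have hd : x - rep cs h w x = c + ob cs h w c 2 + ob cs h w c 4 := by
      rw [hy] at hzero
      exact sub_eq_zero.1 hzero
    have hq1 : 2 * form cs h (rep cs h w x) x = 1 * form cs h x x := by
      have k1 : rep cs h w x = x - (c + ob cs h w c 2 + ob cs h w c 4) := by rw [← hd]; abel
      rw [k1, form_sub_left, form_add_left, form_add_left, form_comm cs h c x, form_comm cs h (ob cs h w c 2) x,
        form_comm cs h (ob cs h w c 4) x]
      linarith
    have hq2 : 2 * form cs h (rep cs h (w ^ 2) x) x = 1 * form cs h x x := by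
      have k1 : rep cs h (w ^ 2) x = x - c := by
        have k2 : rep cs h w x = x - (c + ob cs h w c 2 + ob cs h w c 4) := by rw [← hd]; abel
        rw [pow_two, rep_mul_apply, k2, map_sub, k2, map_add, map_add, rep_ob cs h hw, rep_ob cs h hw, z2p, z4p, ob_zero]
        have k3 : rep cs h w c = ob cs h w c 1 := by
          conv_lhs => rw [← ob_zero cs h w c]
          rw [rep_ob cs h hw, z0p]
        rw [k3]
        rw [ob_zero] at hsum
        have k4 : ob cs h w c 1 = -c - ob cs h w c 2 - ob cs h w c 3 - ob cs h w c 4 := by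
          rw [← sub_eq_zero, ← hsum]; abel
        rw [k4]
        abel
      rw [k1, form_sub_left, form_comm cs h c x]
      linarith
    exact ⟨cpr_eq_of_form cs h hx hq1, cpr_eq_of_form cs h hx hq2⟩

end W

end Cfsg.Agent.H889.Mono.Five
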